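import Cfsg.Agent.SB.Exc.Max.Defs
import Cfsg.Agent.SB.Exc.W.E6
import Cfsg.Agent.Nodes.KindChev
import Cfsg.Agent.BpExc.NChev

/-!
# S5765: the box `BoxMC` (facts on root systems and root groups) (helper61)
-/

set_option autoImplicit false
set_option linter.unusedSectionVars false

namespace Cfsg.Agent.SB.Exc.W

open CoxeterSystem Cfsg Cfsg.Lie Cfsg.Lie.ChevalleyDatum
open Cfsg.Agent.ChevalleyStructure Cfsg.Agent.ChevalleyStructure.Elts Cfsg.Agent.ChevalleyStructure.CoxeterGeom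
  Cfsg.Agent.ChevalleyStructure.CoxeterGeomTypes
open Cfsg.Agent.Tits.Roots Cfsg.Agent.Nodes Cfsg.Agent.Nodes.BNOf Cfsg.Agent.Nodes.RGDChev Cfsg.Agent.Nodes.Coroot
  Cfsg.Agent.Nodes.KindChev
open Cfsg.Agent.KFacts.RgdChevCoord Cfsg.Agent.BpExc Cfsg.Agent.H469.Exc Cfsg.Agent.DS.Ex Cfsg.Agent.SB.Exc.Max
open scoped commutatorElement

/-! ### types -/

theorem type_of {D : ChevalleyDatum} {l : ℕ} {M : CoxeterMatrix (Fin l)} (hp : IsType D l M) :
    (D = chevF4 → (⟨l, M⟩ : Σ n : ℕ, CoxeterMatrix (Fin n)) = ⟨4, CoxeterMatrix.F₄⟩) ∧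
    (D = chevE6 → (⟨l, M⟩ : Σ n : ℕ, CoxeterMatrix (Fin n)) = ⟨6, CoxeterMatrix.E₆⟩) ∧
    (D = chevE7 → (⟨l, M⟩ : Σ n : ℕ, CoxeterMatrix (Fin n)) = ⟨7, CoxeterMatrix.E₇⟩) ∧
    (D = chevE8 → (⟨l, M⟩ : Σ n : ℕ, CoxeterMatrix (Fin n)) = ⟨8, CoxeterMatrix.E₈⟩) := by
  simp only [IsType, typeList, List.mem_cons, List.not_mem_nil, or_false, Prod.mk.injEq] at hp
  refine ⟨?_, ?_, ?_, ?_⟩ <;> rintro rfl <;>
    rcases hp with ⟨e, e'⟩ | ⟨e, e'⟩ | ⟨e, e'⟩ | ⟨e, e'⟩ | ⟨e, e'⟩ | ⟨e, e'⟩ | ⟨e, e'⟩ <;>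
    first
    | exact e'
    | exact absurd (congrArg ChevalleyDatum.nroots e) (by decide +kernel)

theorem laced {D : ChevalleyDatum} {l : ℕ} {M : CoxeterMatrix (Fin l)} (hp : IsType D l M) (hD : Typ D) :
    D = chevF4 ∨ ((∀ i j, M i j ≠ 4) ∧ ∀ i j, M i j ≠ 6) := by
  obtain ⟨-, h6, h7, h8⟩ := type_of hp
  rcases hD with h | h | h | h
  · exact Or.inl h
  · obtain ⟨rfl, e⟩ := Sigma.mk.inj_iff.1 (h6 h)
    obtain rfl := eq_of_heq e
    exact Or.inr ⟨ne4, ne6⟩
  · obtain ⟨rfl, e⟩ := Sigma.mk.inj_iff.1 (h7 h)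
    obtain rfl := eq_of_heq e
    exact Or.inr ⟨fun i j => by fin_cases i <;> fin_cases j <;> decide,
      fun i j => by fin_cases i <;> fin_cases j <;> decide⟩
  · obtain ⟨rfl, e⟩ := Sigma.mk.inj_iff.1 (h8 h)
    obtain rfl := eq_of_heq e
    exact Or.inr ⟨fun i j => by fin_cases i <;> fin_cases j <;> decide,
      fun i j => by fin_cases i <;> fin_cases j <;> decide⟩

/-! ### three neighbours -/

/-- the table -/
def nb (D : ChevalleyDatum) : Bool :=
  (List.range D.rank).all fun i => decide (3 ≤ ((List.range D.nroots).filter fun r => D.cartan i r == 1).length)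

theorem ir3_of {D : ChevalleyDatum} {l : ℕ} {M : CoxeterMatrix (Fin l)} (hp : IsType D l M) (h : nb D = true) :
    IR3 M.toCoxeterSystem hp.isCartan := by
  have := finite_W hp M.toCoxeterSystem
  rintro _ ⟨w, i, rfl⟩
  have h1 := of_decide_eq_true (List.all_eq_true.1 h i (List.mem_range.2 (lt_rank hp i)))
  have h2 : ((List.range D.nroots).filter fun r => D.cartan i r == 1).Nodup := List.nodup_range.filter _
  have h3 : ∀ r ∈ (List.range D.nroots).filter fun r => D.cartan i r == 1, r < D.nroots ∧ D.cartan i r = 1 :=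
    fun r hr => by simpa using hr
  generalize ((List.range D.nroots).filter fun r => D.cartan i r == 1) = L at h1 h2 h3
  match L, h1 with
  | r₁ :: r₂ :: r₃ :: L, _ =>
    simp only [List.nodup_cons, List.mem_cons, not_or] at h2
    have a1 := h3 r₁ (by simp)
    have a2 := h3 r₂ (by simp)
    have a3 := h3 r₃ (by simp)
    have hi : ∀ r s, r < D.nroots → s < D.nroots → r ≠ s → rep M.toCoxeterSystem hp.isCartan w (vec D l r) ≠
        rep M.toCoxeterSystem hp.isCartan w (vec D l s) := fun r s hr hs hrs e => by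
      have e1 := congrArg (rep M.toCoxeterSystem hp.isCartan w⁻¹) e
      rw [rep_inv_apply, rep_inv_apply] at e1
      exact hrs (vec_inj hp hr hs e1)
    have hc : ∀ r, r < D.nroots ∧ D.cartan i r = 1 → cpr M.toCoxeterSystem hp.isCartan
        (rep M.toCoxeterSystem hp.isCartan w (vec D l r)) (rep M.toCoxeterSystem hp.isCartan w (sr i)) = 1 :=
      fun r hr => by rw [cpr_rep _ _ w _ (isRoot_sr _ _ i), cpr_sr, pairing_vec hp i hr.1, hr.2]
    exact ⟨_, _, _, (isRoot_vec hp _ a1.1).act w, (isRoot_vec hp _ a2.1).act w, (isRoot_vec hp _ a3.1).act w,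
      hi _ _ a1.1 a2.1 h2.1.1, hi _ _ a1.1 a3.1 h2.1.2.1, hi _ _ a2.1 a3.1 h2.2.1.1, hc _ a1, hc _ a2, hc _ a3⟩

theorem mc_ir (D : ChevalleyDatum) (l : ℕ) (M : CoxeterMatrix (Fin l)) (hp : IsType D l M) (hD : Typ D) :
    IR3 M.toCoxeterSystem hp.isCartan := by
  refine ir3_of hp ?_
  rcases hD with rfl | rfl | rfl | rfl <;> decide +kernel

/-! ### `F₄` -/

namespace F4

/-- four integers -/
abbrev T4 : Type := ℤ × ℤ × ℤ × ℤ

/-- the vector -/
def tv (x : T4) : Fin 4 → ℤ := ![x.1, x.2.1, x.2.2.1, x.2.2.2]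

/-- the tuple -/
def vt (x : Fin 4 → ℤ) : T4 := (x 0, x 1, x 2, x 3)

theorem tv_vt (x : Fin 4 → ℤ) : tv (vt x) = x := by
  funext i; fin_cases i <;> rfl

theorem tv_inj {x y : T4} (h : tv x = tv y) : x = y := congrArg vt h

theorem tv_add (x y : T4) : tv (x + y) = tv x + tv y := by funext i; fin_cases i <;> rfl

/-- the invariant form -/
def ip (x y : T4) : ℤ := (2 * x.1 - x.2.1) * y.1 + (2 * x.2.1 - x.1 - 2 * x.2.2.1) * y.2.1 +
  2 * (2 * x.2.2.1 - x.2.1 - x.2.2.2) * y.2.2.1 + 2 * (2 * x.2.2.2 - x.2.2.1) * y.2.2.2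

/-- the Cartan number -/
def cp (x y : T4) : ℤ := 2 * ip x y / ip y y

/-- the roots -/
def RL : List T4 :=
  [(-2, -4, -3, -2), (-2, -4, -3, -1), (-2, -4, -2, -1), (-2, -3, -2, -1), (-2, -2, -2, -1), (-2, -2, -1, -1), (-2,
   -2, -1, 0), (-1, -3, -2, -1), (-1, -2, -2, -1), (-1, -2, -1, -1), (-1, -2, -1, 0), (-1, -1, -1, -1), (-1, -1,
   -1, 0), (-1, -1, 0, 0), (-1, 0, 0, 0), (0, -2, -2, -1), (0, -2, -1, -1), (0, -2, -1, 0), (0, -1, -1, -1), (0,
   -1, -1, 0), (0, -1, 0, 0), (0, 0, -1, -1), (0, 0, -1, 0), (0, 0, 0, -1), (0, 0, 0, 1), (0, 0, 1, 0), (0, 0, 1,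
   1), (0, 1, 0, 0), (0, 1, 1, 0), (0, 1, 1, 1), (0, 2, 1, 0), (0, 2, 1, 1), (0, 2, 2, 1), (1, 0, 0, 0), (1, 1, 0,
   0), (1, 1, 1, 0), (1, 1, 1, 1), (1, 2, 1, 0), (1, 2, 1, 1), (1, 2, 2, 1), (1, 3, 2, 1), (2, 2, 1, 0), (2, 2, 1,
   1), (2, 2, 2, 1), (2, 3, 2, 1), (2, 4, 2, 1), (2, 4, 3, 1), (2, 4, 3, 2)]

theorem vec_mem : ∀ s < 48, vt (vec chevF4 4 s) ∈ RL := by decide +kernel

theorem mem_vec : (RL.all fun x => (List.range 48).any fun s => vt (vec chevF4 4 s) == x) = true := by decide +kernel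

theorem cartan_eq : ∀ i j : Fin 4, cartanOf chevF4 4 i j =
    (![![2, -1, 0, 0], ![-1, 2, -2, 0], ![0, -1, 2, -1], ![0, 0, -1, 2]] : Fin 4 → Fin 4 → ℤ) i j := by
  decide +kernel

theorem hd : ∀ i j : Fin 4, (![1, 1, 2, 2] : Fin 4 → ℤ) i * cartanOf chevF4 4 i j =
    (![1, 1, 2, 2] : Fin 4 → ℤ) j * cartanOf chevF4 4 j i := by decide +kernel

theorem qf_tv (x y : T4) : qf (cartanOf chevF4 4) ![1, 1, 2, 2] (tv x) (tv y) = ip x y := by
  simp only [qf, pairing, cartan_eq, Fin.sum_univ_four, tv, ip]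
  simp
  ring

theorem ip_ne : (RL.all fun y => ip y y != 0) = true := by decide +kernel

/-- long roots -/
def lg (a : T4) : Bool := RL.all fun c => c == a || decide (cp c a ≤ 1)

theorem tab : (RL.all fun a => lg a == (ip a a == 4) && RL.all fun b =>
    (b == a || decide (cp b a < 2) || ip b b == 4) && (ip a a == 4 || ip b b != 4 || cp b a % 2 == 0) &&
    (ip a a == 4 || ip b b == 4 || cp b a != 0 || RL.contains (a + b))) = true := by decide +kernel

theorem comm_tab : ((List.range 48).all fun r => (List.range 48).all fun s =>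
    decide (cp (vt (vec chevF4 4 r)) (vt (vec chevF4 4 s)) < 0) ||
      (chevF4.commTerms r s).all fun c => c.2.1 % 2 == 0) = true := by decide +kernel

variable {W : Type*} [Group W] [Finite W] (hp : IsType chevF4 4 CoxeterMatrix.F₄) (cs : CoxeterSystem CoxeterMatrix.F₄ W)

theorem root_iff (x : T4) : IsRoot cs hp.isCartan (tv x) ↔ x ∈ RL := by
  rw [isRoot_iff hp cs]
  constructor
  · rintro ⟨s, hs, h⟩
    have h1 := vec_mem s hs
    rwa [h] at h1
  · intro h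
    obtain ⟨s, hs, h1⟩ := List.any_eq_true.1 (List.all_eq_true.1 mem_vec x h)
    exact ⟨s, List.mem_range.1 hs, by rw [← beq_iff_eq.1 h1, tv_vt]⟩

theorem exists_tv {b : Fin 4 → ℤ} (hb : IsRoot cs hp.isCartan b) : ∃ y ∈ RL, b = tv y :=
  ⟨vt b, (root_iff hp cs _).1 (by rwa [tv_vt]), (tv_vt b).symm⟩

theorem cpr_tv (x : T4) {y : T4} (hy : y ∈ RL) : cpr cs hp.isCartan (tv x) (tv y) = cp x y := by
  have h1 := cpr_mul_qf cs hp.isCartan hd (tv x) ((root_iff hp cs y).2 hy)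
  rw [qf_tv, qf_tv] at h1
  rw [cp, ← h1, Int.mul_ediv_cancel _ (by simpa using List.all_eq_true.1 ip_ne y hy)]

theorem lg_iff {a : T4} (ha : a ∈ RL) : Lg cs hp.isCartan (tv a) ↔ ip a a = 4 := by
  have h1 := List.all_eq_true.1 tab a ha
  rw [Bool.and_eq_true, beq_iff_eq] at h1
  rw [← beq_iff_eq, ← h1.1, lg, List.all_eq_true]
  constructor
  · intro h c hc
    by_cases e : c = a
    · simp [e]
    · have h2 := h _ ((root_iff hp cs c).2 hc) fun e' => e (tv_inj e')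
      rw [cpr_tv hp cs c ha] at h2
      simp [h2]
  · intro h c hc hca
    obtain ⟨c, hc', rfl⟩ := exists_tv hp cs hc
    have h2 := h c hc'
    rw [Bool.or_eq_true, beq_iff_eq, decide_eq_true_iff] at h2
    rw [cpr_tv hp cs c ha]
    exact h2.resolve_left fun e => hca (by rw [e])

theorem tab_at {a b : T4} (ha : a ∈ RL) (hb : b ∈ RL) : (b ≠ a → 2 ≤ cp b a → ip b b = 4) ∧
    (ip a a ≠ 4 → ip b b = 4 → cp b a % 2 = 0) ∧ (ip a a ≠ 4 → ip b b ≠ 4 → cp b a = 0 → a + b ∈ RL) := by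
  have h1 := List.all_eq_true.1 tab a ha
  rw [Bool.and_eq_true] at h1
  have h2 := List.all_eq_true.1 h1.2 b hb
  simp only [Bool.and_eq_true, Bool.or_eq_true, beq_iff_eq, decide_eq_true_iff, bne_iff_ne, List.contains_iff_mem] at h2
  obtain ⟨⟨h3, h4⟩, h5⟩ := h2
  refine ⟨fun e1 e2 => ?_, fun e1 e2 => ?_, fun e1 e2 e3 => ?_⟩
  · rcases h3 with (h | h) | h
    exacts [absurd h e1, absurd h (not_lt.2 e2), h]
  · rcases h4 with (h | h) | h
    exacts [absurd h e1, absurd e2 h, h]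
  · rcases h5 with ((h | h) | h) | h
    exacts [absurd h e1, absurd h e2, absurd e3 h, h]

theorem f4c : F4C cs hp.isCartan := by
  refine ⟨fun a c ha hc h1 h2 => ?_, fun a b ha hb h1 h2 => ?_, ?_, ?_, fun a b ha hb h1 h2 h3 => ?_⟩
  · obtain ⟨a, ha', rfl⟩ := exists_tv hp cs ha
    obtain ⟨c, hc', rfl⟩ := exists_tv hp cs hc
    rw [cpr_tv hp cs c ha'] at h2
    exact (lg_iff hp cs hc').2 ((tab_at ha' hc').1 (fun e => h1 (by rw [e])) h2)
  · obtain ⟨a, ha', rfl⟩ := exists_tv hp cs ha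
    obtain ⟨b, hb', rfl⟩ := exists_tv hp cs hb
    rw [lg_iff hp cs ha'] at h1
    rw [lg_iff hp cs hb'] at h2
    rw [cpr_tv hp cs b ha', Int.even_iff]
    exact (tab_at ha' hb').2.1 h1 h2
  · have h1 : ((0, 0, 1, 0) : T4) ∈ RL := by decide +kernel
    have h2 : ((0, 0, 1, 1) : T4) ∈ RL := by decide +kernel
    exact ⟨_, _, (root_iff hp cs _).2 h1, (root_iff hp cs _).2 h2, (lg_iff hp cs h1).2 (by decide +kernel),
      (lg_iff hp cs h2).2 (by decide +kernel), by rw [cpr_tv hp cs _ h1]; decide +kernel⟩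
  · have h1 : ((1, 0, 0, 0) : T4) ∈ RL := by decide +kernel
    exact ⟨_, (root_iff hp cs _).2 h1, by rw [lg_iff hp cs h1]; decide +kernel⟩
  · obtain ⟨a, ha', rfl⟩ := exists_tv hp cs ha
    obtain ⟨b, hb', rfl⟩ := exists_tv hp cs hb
    rw [lg_iff hp cs ha'] at h1
    rw [lg_iff hp cs hb'] at h2
    rw [cpr_tv hp cs b ha'] at h3
    rw [← tv_add, root_iff hp cs]
    exact (tab_at ha' hb').2.2 h1 h2 h3

theorem dc {K : Type} [Field K] [CharP K 2] : DC cs hp.isCartan (XX chevF4 4 K) := by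
  intro x y hx hy h0 a ha b hb
  apply Subtype.ext
  rw [Subgroup.mem_subgroupOf] at ha hb
  rw [Subgroup.coe_mul, Subgroup.coe_mul]
  generalize (a : GL chevF4.Idx K) = a' at ha
  generalize (b : GL chevF4.Idx K) = b' at hb
  have hxy' : x ≠ -y := by
    rintro rfl
    rw [cpr_neg_right cs _ _ hy, cpr_self cs _ hy] at h0
    omega
  obtain ⟨s, hs, rfl⟩ := (isRoot_iff hp cs x).1 hx
  obtain ⟨r, hr, rfl⟩ := (isRoot_iff hp cs y).1 hy
  rw [XV_vec hp K hs, mem_rootSubgroup_iff hp.inList] at ha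
  rw [XV_vec hp K hr, mem_rootSubgroup_iff hp.inList] at hb
  obtain ⟨u, rfl⟩ := ha
  obtain ⟨t, rfl⟩ := hb
  by_cases hne : s = r
  · rw [hne, xG_add, xG_add, add_comm]
  have hne' : s ≠ chevF4.neg r := fun h => hxy' (by rw [h, vec_neg hp hr])
  have e : ⁅xG hp.inList s u, xG hp.inList r t⁆ = wordG hp.inList (chevF4.commWord K r s (-t) (-u)) := by
    rw [← comm_xG hp hr hs hne hne', xG_inv, xG_inv, _root_.neg_neg, _root_.neg_neg]
  rw [← commutatorElement_eq_one_iff_mul_comm, e]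
  have h1 := List.all_eq_true.1 (List.all_eq_true.1 comm_tab r (List.mem_range.2 hr)) s (List.mem_range.2 hs)
  rw [← tv_vt (vec chevF4 4 r), ← tv_vt (vec chevF4 4 s), cpr_tv hp cs _ (vec_mem s hs)] at h0
  rw [Bool.or_eq_true, decide_eq_true_iff, List.all_eq_true] at h1
  have h2 := h1.resolve_left (not_lt.2 h0)
  unfold ChevalleyDatum.commWord
  generalize chevF4.commTerms r s = L at h2
  induction L with
  | nil => rfl
  | cons c L ih =>
    have h3 : ((c.2.1 : ℤ) : K) = 0 :=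
      (CharP.intCast_eq_zero_iff K 2 _).2 (Int.dvd_of_emod_eq_zero (beq_iff_eq.1 (h2 c (by simp))))
    rw [List.map_cons, wordG_cons, ih fun c hc => h2 c (by simp [hc]), h3, zero_mul, zero_mul, xG_zero, one_mul]

end F4

/-! ### simply laced types -/

theorem dc_laced {D : ChevalleyDatum} {l : ℕ} {M : CoxeterMatrix (Fin l)} (hp : IsType D l M) (h4 : ∀ i j, M i j ≠ 4)
    (h6 : ∀ i j, M i j ≠ 6) (K : Type) [Field K] : DC M.toCoxeterSystem hp.isCartan (XX D l K) := by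
  have := finite_W hp M.toCoxeterSystem
  intro x y hx hy h0 a ha b hb
  by_cases hxy : x = y
  · subst hxy
    obtain ⟨s, hs, rfl⟩ := (isRoot_iff hp _ x).1 hx
    apply Subtype.ext
    rw [Subgroup.mem_subgroupOf, XV_vec hp K hs, mem_rootSubgroup_iff hp.inList] at ha hb
    obtain ⟨u, hu⟩ := ha
    obtain ⟨t, ht⟩ := hb
    rw [Subgroup.coe_mul, Subgroup.coe_mul, hu, ht, xG_add, xG_add, add_comm]
  have hxy' : x ≠ -y := by
    rintro rfl
    rw [cpr_neg_right _ _ _ hy, cpr_self _ _ hy] at h0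
    omega
  have h1 := CommZ.comm_mem_Z hp M.toCoxeterSystem hx hy hxy hxy' ha hb
  have h2 : RGD.Sup (XX D l K) (CommZ.combZ M.toCoxeterSystem hp x y) ≤ ⊥ := by
    refine RGD.Sup_le ?_
    rintro z ⟨hz, i, j, hi, hj, e⟩
    exfalso
    have key : ∀ v, IsRoot M.toCoxeterSystem hp.isCartan v → cpr M.toCoxeterSystem hp.isCartan z v =
        i * cpr M.toCoxeterSystem hp.isCartan x v + j * cpr M.toCoxeterSystem hp.isCartan y v := fun v hv => by
      rw [e, cpr_add _ _ _ _ hv, ← natCast_zsmul, ← natCast_zsmul, cpr_smul _ _ _ _ hv, cpr_smul _ _ _ _ hv]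
    have e1 := key z hz
    have e2 := key x hx
    have e3 := key y hy
    rw [cpr_self _ _ hz, SimplyLaced.cpr_symm _ _ h4 h6 hx hz, SimplyLaced.cpr_symm _ _ h4 h6 hy hz, e2, e3,
      cpr_self _ _ hx, cpr_self _ _ hy, SimplyLaced.cpr_symm _ _ h4 h6 hx hy] at e1
    have hi' : (1 : ℤ) ≤ i := by exact_mod_cast hi
    have hj' : (1 : ℤ) ≤ j := by exact_mod_cast hj
    nlinarith [mul_nonneg (mul_nonneg (by omega : (0 : ℤ) ≤ i) (by omega : (0 : ℤ) ≤ j)) h0]
  exact commutatorElement_eq_one_iff_mul_comm.1 (Subgroup.mem_bot.1 (h2 h1))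

/-! ### `E₆` -/

/-- a third -/
def dv (x : T6) : T6 := (x.1 / 3, x.2.1 / 3, x.2.2.1 / 3, x.2.2.2.1 / 3, x.2.2.2.2.1 / 3, x.2.2.2.2.2 / 3)

theorem dv_smul (x : T6) : dv ((3 : ℤ) • x) = x := by
  obtain ⟨a, b, c, d, e, f⟩ := x
  simp [dv]

/-- the generator of the radical modulo three -/
def zz : T6 := (1, 0, -1, 0, 1, -1)

theorem chk3 : (SL.all fun a => !(fl 0 a RL).isEmpty && (fl 0 a RL).all fun b => !(fl 0 b (fl 0 a RL)).isEmpty) = true := by
  decide +kernel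

theorem chk4 : (SL.all fun a => (fl (-1) a RL).all fun b => (a - b != (3 : ℤ) • dv (a - b)) &&
    (fl 0 b (fl 0 a RL)).all fun c => (fl 0 b (fl 0 a RL)).any fun c' => ip c c' == -1 &&
      ((fl 1 c (fl 0 b (fl 0 a RL))).all fun x => x == -c' || x == c + c') &&
      [1, -1].any fun ε : ℤ => [1, -1].any fun δ : ℤ =>
        zz == ε • (a - b) + δ • (c - c') + (3 : ℤ) • dv (zz - ε • (a - b) - δ • (c - c'))) = true := by
  decide +kernel

theorem tv_sub (x y : T6) : tv (x - y) = tv x - tv y := by funext i; fin_cases i <;> rfl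

theorem tv_inj {x y : T6} (h : tv x = tv y) : x = y := congrArg vt h

section E6

variable {W : Type*} [Group W] [Finite W] (hp : IsType chevE6 6 CoxeterMatrix.E₆) (cs : CoxeterSystem CoxeterMatrix.E₆ W)

theorem one_orth {a : Fin 6 → ℤ} (ha : IsRoot cs hp.isCartan a) :
    ∃ d, IsRoot cs hp.isCartan d ∧ cpr cs hp.isCartan a d = 0 := by
  obtain ⟨w, a, ha', rfl⟩ := exists_sl hp cs ha
  have h1 := List.all_eq_true.1 chk3 a ha'
  rw [Bool.and_eq_true, Bool.not_eq_true', List.isEmpty_eq_false_iff_exists_mem] at h1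
  obtain ⟨d, hd⟩ := h1.1
  rw [mem_fl] at hd
  exact ⟨_, root_w hp cs w hd.1, by rw [cpr_w hp cs w _ hd.1, hd.2]⟩

theorem two_orth {a b : Fin 6 → ℤ} (ha : IsRoot cs hp.isCartan a) (hb : IsRoot cs hp.isCartan b)
    (hab : cpr cs hp.isCartan a b = 0) :
    ∃ d, IsRoot cs hp.isCartan d ∧ cpr cs hp.isCartan a d = 0 ∧ cpr cs hp.isCartan b d = 0 := by
  obtain ⟨w, a, ha', rfl⟩ := exists_sl hp cs ha
  obtain ⟨b, hb', rfl⟩ := exists_tv hp cs w hb
  rw [cpr_w hp cs w _ hb'] at hab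
  have h1 := List.all_eq_true.1 chk3 a ha'
  rw [Bool.and_eq_true] at h1
  have h2 := List.all_eq_true.1 h1.2 b (mem_fl.2 ⟨hb', hab⟩)
  rw [Bool.not_eq_true', List.isEmpty_eq_false_iff_exists_mem] at h2
  obtain ⟨d, hd⟩ := h2
  simp only [mem_fl] at hd
  exact ⟨_, root_w hp cs w hd.1.1, by rw [cpr_w hp cs w _ hd.1.1, hd.1.2], by rw [cpr_w hp cs w _ hd.1.1, hd.2]⟩

theorem rep_zz (w : W) : ∃ y, rep cs hp.isCartan w (tv zz) = tv zz + (3 : ℤ) • y := by
  obtain ⟨ω, rfl⟩ := cs.wordProd_surjective w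
  induction ω with
  | nil => exact ⟨0, by rw [wordProd_nil, map_one, Module.End.one_apply, smul_zero, add_zero]⟩
  | cons i ω ih =>
    obtain ⟨y, hy⟩ := ih
    have h1 : ∀ i : Fin 6, (3 : ℤ) ∣ pairing (cartanOf chevE6 6) i (tv zz) := by decide +kernel
    obtain ⟨k, hk⟩ := h1 i
    refine ⟨rep cs hp.isCartan (cs.simple i) y - k • sr i, ?_⟩
    rw [wordProd_cons, rep_mul_apply, hy, map_add, map_smul, rep_simple_eq cs hp.isCartan i (tv zz), hk]
    module

theorem no_inv (w : W) {a b c : Fin 6 → ℤ} (ha : IsRoot cs hp.isCartan a) (hb : IsRoot cs hp.isCartan b)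
    (hc : IsRoot cs hp.isCartan c) (hab : cpr cs hp.isCartan a b = -1) (hac : cpr cs hp.isCartan a c = 0)
    (hbc : cpr cs hp.isCartan b c = 0) (h1 : rep cs hp.isCartan w a = -a) (h2 : rep cs hp.isCartan w b = -b)
    (h3 : rep cs hp.isCartan w c = -c) : False := by
  obtain ⟨v, a, ha', rfl⟩ := exists_sl hp cs ha
  obtain ⟨b, hb', rfl⟩ := exists_tv hp cs v hb
  obtain ⟨c, hc', rfl⟩ := exists_tv hp cs v hc
  rw [cpr_w hp cs v _ hb'] at hab
  rw [cpr_w hp cs v _ hc'] at hac hbc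
  have key : ∀ x, rep cs hp.isCartan w (rep cs hp.isCartan v x) = -rep cs hp.isCartan v x →
      rep cs hp.isCartan (v⁻¹ * w * v) x = -x := fun x hx => by
    rw [rep_mul_apply, rep_mul_apply, hx, map_neg, rep_inv_apply]
  replace h1 := key _ h1
  replace h2 := key _ h2
  replace h3 := key _ h3
  generalize v⁻¹ * w * v = g at h1 h2 h3
  have t1 := List.all_eq_true.1 (List.all_eq_true.1 chk4 a ha') b (mem_fl.2 ⟨hb', hab⟩)
  rw [Bool.and_eq_true, bne_iff_ne] at t1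
  have t2 := List.all_eq_true.1 t1.2 c (mem_fl.2 ⟨mem_fl.2 ⟨hc', hac⟩, hbc⟩)
  simp only [List.any_eq_true, List.all_eq_true, Bool.and_eq_true, Bool.or_eq_true, beq_iff_eq, mem_fl] at t2
  obtain ⟨c', ⟨⟨r1, p1⟩, p2⟩, ⟨p3, p4⟩, ε, hε, δ, -, p5⟩ := t2
  generalize dv (zz - ε • (a - b) - δ • (c - c')) = y at p5
  obtain ⟨x, hx, ex⟩ := exists_tv hp cs 1 (root_w hp cs g r1)
  rw [map_one, Module.End.one_apply] at ex
  have q : ∀ u : T6, rep cs hp.isCartan g (tv u) = -tv u → ip u x = -ip u c' := fun u hu => by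
    have e1 := cpr_w hp cs g u r1
    rw [hu, ex, cpr_neg cs _ _ ((root_iff hp cs x).2 hx), cpr_tv hp cs u hx] at e1
    omega
  have q1 := q a h1
  have q2 := q b h2
  have q3 := q c h3
  obtain ⟨y', hy'⟩ := rep_zz hp cs g
  have e0 := congrArg tv p5
  simp only [tv_add, tv_smul, tv_sub] at e0
  have e1 := congrArg (rep cs hp.isCartan g) e0
  simp only [map_add, map_smul, map_sub, h1, h2, h3, ex, hy'] at e1
  rcases p4 x ⟨⟨⟨hx, by omega⟩, by omega⟩, by omega⟩ with rfl | rfl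
  · rw [tv_neg] at e1
    have e2 : (2 : ℤ) • tv zz = (3 : ℤ) • (tv y + rep cs hp.isCartan g (tv y) - y') := by
      linear_combination (norm := module) e0 + e1
    have e3 := congrFun e2 0
    simp only [Pi.smul_apply, smul_eq_mul, show tv zz 0 = 1 from rfl] at e3
    omega
  · rw [tv_add] at e1
    have hε2 : ε * ε = 1 := by
      simp only [List.mem_cons, List.not_mem_nil, or_false] at hε
      rcases hε with rfl | rfl <;> rfl
    have e2 : (2 * ε) • (tv a - tv b) = (3 : ℤ) • (rep cs hp.isCartan g (tv y) - tv y - y' - δ • tv c) := by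
      linear_combination (norm := module) e1 - e0
    have e3 : tv (a - b) = tv ((3 : ℤ) • vt (tv a - tv b -
        ε • (rep cs hp.isCartan g (tv y) - tv y - y' - δ • tv c))) := by
      rw [tv_smul, tv_vt, tv_sub, smul_sub (3 : ℤ) (tv a - tv b), smul_comm (3 : ℤ) ε, ← e2, smul_smul, mul_left_comm,
        hε2]
      module
    exact t1.1 (by rw [tv_inj e3, dv_smul])

theorem e6c : E6C cs hp.isCartan := by
  refine ⟨fun a b => cpr_comm hp cs, fun P hP hn ho hr => ?_, fun a b ha hb hab => ?_,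
    fun w a b c ha hb hc hab hca hcb h => no_inv hp cs w ha hb hc hab (by rw [cpr_comm hp cs ha hc, hca])
      (by rw [cpr_comm hp cs hb hc, hcb]) h.1 h.2.1 h.2.2⟩
  · have step : ∀ r, IsRoot cs hp.isCartan r → ∃ d ∈ P, ∀ a ∈ P, cpr cs hp.isCartan a r = 0 →
        cpr cs hp.isCartan a d = 0 := fun r hr' => by
      obtain ⟨d, hd, h1⟩ := hr r hr'
      refine ⟨d, hd, fun a ha h2 => ?_⟩
      rcases ho d hd a ha with rfl | rfl | h3
      · exact absurd ((cpr_comm hp cs hr' (hP _ ha)).trans h2) h1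
      · rw [cpr_neg cs _ _ hr', neg_eq_zero] at h2
        exact absurd ((cpr_comm hp cs hr' (hP _ hd)).trans h2) h1
      · exact h3
    obtain ⟨a, ha, -⟩ := hr _ (isRoot_sr cs _ 0)
    obtain ⟨r₁, k1, k2⟩ := one_orth hp cs (hP a ha)
    obtain ⟨b, hb, sb⟩ := step r₁ k1
    have hab := sb a ha k2
    obtain ⟨r₂, k1, k2, k3⟩ := two_orth hp cs (hP a ha) (hP b hb) hab
    obtain ⟨c, hc, sc⟩ := step r₂ k1
    have hac := sc a ha k2
    have hbc := sc b hb k3
    obtain ⟨r₃, k1, k2, k3, k4⟩ := three_orth hp cs (hP a ha) (hP b hb) (hP c hc) hab hac hbc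
    obtain ⟨d, hd, sd⟩ := step r₃ k1
    have had := sd a ha k2
    have hbd := sd b hb k3
    have hcd := sd c hc k4
    obtain ⟨r, hr', e⟩ := four_orth hp cs (hP a ha) (hP b hb) (hP c hc) (hP d hd) hab hac had hbc hbd hcd
    have hne : ∀ x ∈ P, ∀ y, cpr cs hp.isCartan x y = 0 → x ≠ y := fun x hx y h0 e => by
      rw [← e, cpr_self cs _ (hP x hx)] at h0
      omega
    have half : ∀ x ∈ P, cpr cs hp.isCartan a x + cpr cs hp.isCartan b x + cpr cs hp.isCartan c x +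
        cpr cs hp.isCartan d x = 2 → cpr cs hp.isCartan x r = 1 := fun x hx h2 => by
      rw [← cpr_add cs _ _ _ (hP x hx), ← cpr_add cs _ _ _ (hP x hx), ← cpr_add cs _ _ _ (hP x hx), ← e,
        cpr_add cs _ _ _ (hP x hx)] at h2
      rw [cpr_comm hp cs (hP x hx) hr']
      omega
    refine ⟨?_, a, ha, b, hb, c, hc, d, hd, r, hr', by rw [two_smul, e], half a ha ?_, half b hb ?_, half c hc ?_,
      hne a ha b hab, hne a ha c hac, hne b hb c hbc⟩
    · let φ : (Fin 6 → ℤ) →ₗ[ℤ] (Fin 4 → ℤ) := Matrix.mulVecLin (Matrix.of ![a, b, c, d])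
      obtain ⟨y, hy0, hy⟩ : ∃ y, y ≠ 0 ∧ φ y = 0 := by
        by_contra hcon
        push Not at hcon
        have h1 := LinearMap.finrank_le_finrank_of_injective (f := φ)
          ((injective_iff_map_eq_zero φ).2 fun y h => by_contra fun h' => hcon y h' h)
        simp at h1
      let f : (Fin 6 → ℤ) →+ ℤ := AddMonoidHom.mk' (fun x => x ⬝ᵥ y) fun x x' => add_dotProduct x x' y
      have fa : f a = 0 := congrFun hy 0
      have fb : f b = 0 := congrFun hy 1
      have fc : f c = 0 := congrFun hy 2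
      have fd : f d = 0 := congrFun hy 3
      refine ⟨f, fun h0 => hy0 (funext fun i => ?_), fun x hx => ?_⟩
      · have h1 : (Pi.single i 1 : Fin 6 → ℤ) ⬝ᵥ y = 0 := DFunLike.congr_fun h0 (Pi.single i 1)
        simpa using h1
      · by_contra h0
        have k : ∀ u ∈ P, f u = 0 → cpr cs hp.isCartan u x = 0 := fun u hu hf => by
          rcases ho x hx u hu with rfl | rfl | h
          · exact absurd hf h0
          · exact absurd (by rwa [map_neg, neg_eq_zero] at hf) h0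
          · exact h
        exact five_orth hp cs (hP a ha) (hP b hb) (hP c hc) (hP d hd) (hP x hx) hab hac had (k a ha fa) hbc hbd
          (k b hb fb) hcd (k c hc fc) (k d hd fd)
    · rw [cpr_self cs _ (hP a ha), cpr_comm hp cs (hP b hb) (hP a ha), cpr_comm hp cs (hP c hc) (hP a ha),
        cpr_comm hp cs (hP d hd) (hP a ha), hab, hac, had]; rfl
    · rw [cpr_self cs _ (hP b hb), cpr_comm hp cs (hP c hc) (hP b hb), cpr_comm hp cs (hP d hd) (hP b hb), hab, hbc,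
        hbd]; rfl
    · rw [cpr_self cs _ (hP c hc), cpr_comm hp cs (hP d hd) (hP c hc), hac, hbc, hcd]; rfl
  · obtain ⟨a₁, b₁, a₂, b₂, h⟩ := a2_triple hp cs ha hb hab
    exact ⟨a₁, b₁, h.ra₁, h.rb₁, by rw [cpr_comm hp cs h.rb₁ h.ra₁, h.a₁b₁], by rw [cpr_comm hp cs h.ra₁ ha, h.aa₁],
      by rw [cpr_comm hp cs h.ra₁ hb, h.ba₁], by rw [cpr_comm hp cs h.rb₁ ha, h.ab₁],
      by rw [cpr_comm hp cs h.rb₁ hb, h.bb₁]⟩

end E6

/-- **[MC]** -/
theorem boxMC : BoxMC := by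
  refine ⟨fun D l M hp hD p _ h2 => ?_, mc_ir, fun l M hp => ?_, fun l M hp => ?_⟩
  · rcases laced hp hD with rfl | ⟨h4, h6⟩
    · obtain ⟨rfl, e⟩ := Sigma.mk.inj_iff.1 ((type_of hp).1 rfl)
      obtain rfl := eq_of_heq e
      obtain rfl := h2 rfl
      have := finite_W hp CoxeterMatrix.F₄.toCoxeterSystem
      exact F4.dc hp _
    · exact dc_laced hp h4 h6 _
  · obtain ⟨rfl, e⟩ := Sigma.mk.inj_iff.1 ((type_of hp).1 rfl)
    obtain rfl := eq_of_heq e
    have := finite_W hp CoxeterMatrix.F₄.toCoxeterSystem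
    exact F4.f4c hp _
  · obtain ⟨rfl, e⟩ := Sigma.mk.inj_iff.1 ((type_of hp).2.1 rfl)
    obtain rfl := eq_of_heq e
    have := finite_W hp CoxeterMatrix.E₆.toCoxeterSystem
    exact e6c hp _

end Cfsg.Agent.SB.Exc.W
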